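import Mathlib
import Cfsg.Agent.Lib.SmallSimple.Fixed

namespace Cfsg.Agent.Lib.SmallSimple

/-- Orbit-stabilizer for conjugation, in the form most convenient here. -/
theorem card_eq_card_isConj_mul_card_centralizer {G : Type*} [Group G] [Finite G] (x : G) :
    Nat.card G = Nat.card {y : G // IsConj x y} * Nat.card (Subgroup.centralizer ({x} : Set G)) := by
  let f3 : G → {y : G // IsConj x y} := fun g => ⟨g⁻¹ * x * g, by
    rw [isConj_iff]
    exact ⟨g⁻¹, by simp⟩⟩
  apply card_eq_mul_of_fibers f3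
  rintro ⟨y, hxy⟩
  obtain ⟨c, hc⟩ := isConj_iff.mp hxy
  have hy' : y = c * x * c⁻¹ := hc.symm
  subst hy'
  refine Nat.card_congr ?_
  refine
    { toFun := fun g => ⟨g.1 * c, ?_⟩
      invFun := fun w => ⟨w.1 * c⁻¹, ?_⟩
      left_inv := ?_
      right_inv := ?_ }
  · have h := congrArg Subtype.val g.2
    have h2 : g.1⁻¹ * x * g.1 = c * x * c⁻¹ := h
    rw [Subgroup.mem_centralizer_singleton_iff]
    calc g.1 * c * x = g.1 * (c * x * c⁻¹) * c := by group
      _ = g.1 * (g.1⁻¹ * x * g.1) * c := by rw [h2]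
      _ = x * (g.1 * c) := by group
  · apply Subtype.ext
    have hw := Subgroup.mem_centralizer_singleton_iff.mp w.2
    show (w.1 * c⁻¹)⁻¹ * x * (w.1 * c⁻¹) = c * x * c⁻¹
    calc (w.1 * c⁻¹)⁻¹ * x * (w.1 * c⁻¹) = c * (w.1⁻¹ * (x * w.1)) * c⁻¹ := by group
      _ = c * (w.1⁻¹ * (w.1 * x)) * c⁻¹ := by rw [hw]
      _ = c * x * c⁻¹ := by group
  · intro g
    apply Subtype.ext
    simp
  · intro g
    apply Subtype.ext
    simp

/-- Counting a conjugation-invariant set of elements all of whose centralizers have `k` elements. -/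
theorem card_eq_card_classes_mul {G : Type*} [Group G] [Finite G] (A : G → Prop)
    (hA : ∀ x y : G, IsConj x y → A x → A y) (k c : ℕ) (hk : ∀ x, A x → Nat.card {y : G // IsConj x y} = c) :
    Nat.card {g : G // A g} = Nat.card {d : ConjClasses G // ∃ g : G, ConjClasses.mk g = d ∧ A g} * c := by
  classical
  let f : {g : G // A g} → {d : ConjClasses G // ∃ g : G, ConjClasses.mk g = d ∧ A g} :=
    fun g => ⟨ConjClasses.mk g.1, g.1, rfl, g.2⟩
  apply card_eq_mul_of_fibers f
  rintro ⟨d, g, rfl, hg⟩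
  rw [← hk g hg]
  refine Nat.card_congr ?_
  refine
    { toFun := fun w => ⟨w.1.1, ?_⟩
      invFun := fun w => ⟨⟨w.1, hA _ _ w.2 hg⟩, ?_⟩
      left_inv := fun w => rfl
      right_inv := fun w => rfl }
  · have h := congrArg Subtype.val w.2
    exact (ConjClasses.mk_eq_mk_iff_isConj.mp h.symm)
  · apply Subtype.ext
    exact ConjClasses.mk_eq_mk_iff_isConj.mpr w.2.symm

end Cfsg.Agent.Lib.SmallSimple
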